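import Cfsg.Agent.H996.L16.E8
import Cfsg.Agent.H955.L16.Stmt

/-!
# S5916: the elimination of type N, `(0,1)` (helper945)

`elimN01 : Ops Fp ta → ElimN01 Fp ta`.
Coefficient 104 of `SIG` is `o1 ^ 6`; coefficient 196 of `[s ++, s -+]` is `o3 B²`; coefficient 135 of `INV2` is
`o3 ^ 10 + B ^ 20` modulo `o1`, `A A2`.
-/

set_option autoImplicit false
set_option maxRecDepth 20000

namespace Cfsg.Agent.H945.L16

open Cfsg.Agent.H939.L64 (KK LK brK)
open Cfsg.Agent.H413.L16 (er nr)
open Cfsg.Agent.H939.L16 (iz xl)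
open Cfsg.Agent.H996.L16
open Cfsg.Agent.H955.L16

/-- the variables -/
noncomputable def xv (k o1 o3 r1 r2 r3 r0 K1 K2 A A2 B : KK) : ℕ → KK
  | 0 => k
  | 1 => o1
  | 2 => o3
  | 3 => r1
  | 4 => r2
  | 5 => r3
  | 6 => r0
  | 7 => K1
  | 8 => K2
  | 9 => A
  | 10 => A2
  | 11 => B
  | _ => 0

/-- `vR` -/
def lR : Vec := [(128, [1]), (127, [0, 1]), (131, [0, 1]), (136, [0, 0, 1]), (163, [0, 0, 1]), (147, [0, 0, 0, 1]),
  (137, [0, 0, 0, 0, 1]), (143, [0, 0, 0, 0, 0, 1]), (148, [0, 0, 0, 0, 0, 0, 1])]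

/-- `vN` -/
def lN : Vec := [(157, [0, 0, 0, 0, 0, 0, 0, 1]), (172, [0, 0, 0, 0, 0, 0, 0, 0, 1]), (2, [0, 0, 0, 0, 0, 0, 0, 0, 0, 1]),
  (154, [0, 0, 0, 0, 0, 0, 0, 0, 0, 1]), (129, [0, 0, 0, 0, 0, 0, 0, 0, 0, 0, 1]), (156, [0, 0, 0, 0, 0, 0, 0, 0, 0, 0, 1]),
  (2, [0, 0, 0, 0, 0, 0, 0, 0, 0, 0, 0, 1]), (167, [0, 0, 0, 0, 0, 0, 0, 0, 0, 0, 0, 1])]

/-- `t0` -/
def Tx (e : Ex) : Ex := .op 131 (.op 136 (.op 151 (.op 145 (.op 1 e))))

/-- the family -/
def S (a b : Bool) : Ex :=
  match a, b with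
  | true, true => .lit lR
  | false, true => .op 0 (.lit lN)
  | false, false => Tx (.lit lR)
  | true, false => Tx (.op 0 (.lit lN))

def sgx (a d : Bool) : Ex := .add (.br (S a true) (.op 0 (S false d))) (.br (S a false) (.op 0 (S true d)))

def SIGx : Ex := .add (.br (sgx true true) (sgx false false)) (.br (sgx true false) (sgx false true))

def ix (b c d : Bool) : Ex :=
  .br (.br (S true b) (.op 0 (.op 0 (S c d)))) (.br (S false (!b)) (.op 0 (.op 0 (S (!c) (!d)))))

def INVx : Ex :=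
  .add (.add (.add (ix true true true) (ix true true false)) (.add (ix true false true) (ix true false false)))
    (.add (.add (ix false true true) (ix false true false)) (.add (ix false false true) (ix false false false)))

theorem c104 : SIGx.chk bt tb ks 104 [[0, 6]] = true := by decide +kernel

theorem c196 : (Ex.br (S true true) (S false true)).chk bt tb ks 196 [[0, 0, 1, 0, 0, 0, 0, 0, 0, 0, 0, 2]] = true := by
  decide +kernel

theorem c135 : INVx.chk bt tb ks 135 [[0, 4, 0, 4, 0, 0, 0, 0, 0, 2, 2], [0, 4, 4, 0, 0, 0, 0, 0, 0, 2, 2],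
    [0, 0, 4, 0, 0, 4, 0, 0, 0, 2, 2], [0, 8, 0, 0, 0, 0, 0, 0, 0, 0, 0, 4], [0, 0, 0, 0, 0, 0, 0, 0, 0, 0, 0, 20],
    [0, 0, 10], [0, 10], [0, 2, 0, 0, 0, 0, 0, 0, 0, 0, 0, 16]] = true := by decide +kernel

section

variable {Fp : LK → LK} {ta : LK →ₗ[KK] LK}

theorem val_xl (x : ℕ → KK) {r : ℕ} (hr : r < 240) (e : Ex) :
    VAL Fp ta x (.op (r + 10) e) = xl ⟨r, by rw [nr]; exact hr⟩ 1 (VAL Fp ta x e) := by
  show PHI2 (r + 8) (VAL Fp ta x e) = _
  unfold PHI2
  rw [dif_pos ⟨by omega, by omega⟩]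
  rfl

theorem val_T (x : ℕ → KK) (e : Ex) : VAL Fp ta x (Tx e) = T ta (VAL Fp ta x e) := by
  have h1 := val_xl (Fp := Fp) (ta := ta) x (r := 121) (by norm_num) (.op 136 (.op 151 (.op 145 (.op 1 e))))
  have h2 := val_xl (Fp := Fp) (ta := ta) x (r := 126) (by norm_num) (.op 151 (.op 145 (.op 1 e)))
  have h3 := val_xl (Fp := Fp) (ta := ta) x (r := 141) (by norm_num) (.op 145 (.op 1 e))
  have h4 := val_xl (Fp := Fp) (ta := ta) x (r := 135) (by norm_num) (.op 1 e)
  unfold Tx T iz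
  rw [h1, h2, h3, h4, VAL_ta]

variable (k o1 o3 r1 r2 r3 r0 K1 K2 A A2 B : KK)

theorem val_R : VAL Fp ta (xv k o1 o3 r1 r2 r3 r0 K1 K2 A A2 B) (.lit lR) = vR k o1 o3 r1 r2 r3 r0 := by
  rw [VAL_lit]
  unfold ev lR vR
  simp only [List.map_cons, List.map_nil, List.sum_cons, List.sum_nil, evM, xv, pow_zero, pow_one, one_mul, mul_one, zero_add,
    add_zero, smul_add, bs, if_pos (show (128 : ℕ) < 240 by norm_num), if_pos (show (127 : ℕ) < 240 by norm_num),
    if_pos (show (131 : ℕ) < 240 by norm_num), if_pos (show (136 : ℕ) < 240 by norm_num),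
    if_pos (show (163 : ℕ) < 240 by norm_num), if_pos (show (147 : ℕ) < 240 by norm_num),
    if_pos (show (137 : ℕ) < 240 by norm_num), if_pos (show (143 : ℕ) < 240 by norm_num),
    if_pos (show (148 : ℕ) < 240 by norm_num)]
  abel

theorem val_N : VAL Fp ta (xv k o1 o3 r1 r2 r3 r0 K1 K2 A A2 B) (.lit lN) = vN K1 K2 A A2 B := by
  rw [VAL_lit]
  unfold ev lN vN
  simp only [List.map_cons, List.map_nil, List.sum_cons, List.sum_nil, evM, xv, pow_zero, pow_one, one_mul, mul_one, zero_add,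
    add_zero, smul_add, bs, if_pos (show (157 : ℕ) < 240 by norm_num), if_pos (show (172 : ℕ) < 240 by norm_num),
    if_pos (show (2 : ℕ) < 240 by norm_num), if_pos (show (154 : ℕ) < 240 by norm_num),
    if_pos (show (129 : ℕ) < 240 by norm_num), if_pos (show (156 : ℕ) < 240 by norm_num),
    if_pos (show (167 : ℕ) < 240 by norm_num)]
  abel

/-- **type N, `(0,1)`** -/
theorem elimN01 (H : Cfsg.Agent.H939.L16.Ops Fp ta) : ElimN01 Fp ta := by
  intro s k o1 o3 r1 r2 r3 r0 K1 K2 A A2 B hR hN h1 h2 h3 hSS hINV hSIG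
  set x := xv k o1 o3 r1 r2 r3 r0 K1 K2 A A2 B with hx
  have hS : ∀ a b, VAL Fp ta x (S a b) = s a b := by
    have e1 : VAL Fp ta x (S true true) = s true true := (val_R _ _ _ _ _ _ _ _ _ _ _ _).trans h1.symm
    have e2 : VAL Fp ta x (S false true) = s false true := by
      rw [h2]
      exact congrArg Fp (val_N _ _ _ _ _ _ _ _ _ _ _ _)
    have e3 : VAL Fp ta x (S false false) = s false false := by
      rw [show s false false = T ta (s true true) from h3 true true, ← e1]
      exact val_T x _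
    have e4 : VAL Fp ta x (S true false) = s true false := by
      rw [show s true false = T ta (s false true) from h3 false true, ← e2]
      exact val_T x _
    intro a b
    cases a <;> cases b
    exacts [e3, e2, e4, e1]
  -- `o1 = 0`
  have a1 : o1 = 0 := by
    have h0 : VAL Fp ta x SIGx = 0 := by
      unfold SIGx sgx
      simp only [VAL_add, VAL_br, VAL_fp, hS]
      have h := hSIG
      unfold SIG sg at h
      simp only [Fintype.sum_bool, Bool.not_true, Bool.not_false] at h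
      exact h
    have h := rel H x (by norm_num : 104 < 248) c104 h0
    have h5 : o1 ^ 6 = 0 := by
      simpa [evP, evM, hx, xv] using h
    exact pow_eq_zero_iff (by norm_num) |>.1 h5
  -- `o3 B² = 0`
  have a2 : o3 * B ^ 2 = 0 := by
    have h0 : VAL Fp ta x (Ex.br (S true true) (S false true)) = 0 := by
      rw [VAL_br, hS, hS]
      exact hSS _ _ _ _
    have h := rel H x (by norm_num : 196 < 248) c196 h0
    simpa [evP, evM, hx, xv] using h
  have a3 : o3 ^ 10 + B ^ 20 = 0 := by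
    have h0 : VAL Fp ta x INVx = 0 := by
      unfold INVx ix
      simp only [VAL_add, VAL_br, VAL_fp, hS]
      have h := hINV
      unfold INV2 at h
      simp only [Fintype.sum_bool] at h
      exact h
    have h := rel H x (by norm_num : 135 < 248) c135 h0
    simp only [evP, evM, hx, xv, List.map_cons, List.map_nil, List.sum_cons, List.sum_nil, pow_zero, one_mul, mul_one, a1] at h
    linear_combination h - (r3 ^ 4 * o3 ^ 4 * A * A2) * hN
  refine ⟨a1, ?_⟩
  by_contra h5
  have h6 : B = 0 := by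
    rcases mul_eq_zero.1 a2 with h | h
    · exact absurd h h5
    · exact pow_eq_zero_iff (by norm_num) |>.1 h
  rw [h6] at a3
  exact h5 (pow_eq_zero_iff (n := 10) (by norm_num) |>.1 (by linear_combination a3))

end

end Cfsg.Agent.H945.L16
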