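import Cfsg.Agent.H945.L16.ElimN01

/-!
# S5916: the elimination of type N, `(0,2)` (helper945)

`elimN02 : Ops Fp ta → ElimN02 Fp ta`: the coefficients 194 and 6 of `[v, F² v]` are `o1 ^ 5 + o3 ^ 5` and `o3 ^ 5`.
-/

set_option autoImplicit false
set_option maxRecDepth 20000

namespace Cfsg.Agent.H945.L16

open Cfsg.Agent.H939.L64 (KK LK brK)
open Cfsg.Agent.H996.L16
open Cfsg.Agent.H955.L16

def N02x : Ex := .br (.lit lR) (.op 0 (.op 0 (.lit lR)))

theorem d194 : N02x.chk bt tb ks 194 [[0, 5], [0, 0, 5]] = true := by decide +kernel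

theorem d6 : N02x.chk bt tb ks 6 [[0, 0, 5]] = true := by decide +kernel

/-- **type N, `(0,2)`** -/
theorem elimN02 {Fp : LK → LK} {ta : LK →ₗ[KK] LK} (H : Cfsg.Agent.H939.L16.Ops Fp ta) : ElimN02 Fp := by
  intro k o1 o3 r1 r2 r3 r0 _ h
  have h0 : VAL Fp ta (xv k o1 o3 r1 r2 r3 r0 0 0 0 0 0) N02x = 0 := by
    rw [← h, ← val_R (Fp := Fp) (ta := ta) k o1 o3 r1 r2 r3 r0 0 0 0 0 0]
    rfl
  have h1 := rel H _ (by norm_num : 6 < 248) d6 h0
  have h2 := rel H _ (by norm_num : 194 < 248) d194 h0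
  simp only [evP, evM, xv, List.map_cons, List.map_nil, List.sum_cons, List.sum_nil, pow_zero, one_mul, mul_one,
    add_zero] at h1 h2
  rw [h1, add_zero] at h2
  exact ⟨pow_eq_zero_iff (by norm_num) |>.1 h2, pow_eq_zero_iff (by norm_num) |>.1 h1⟩

end Cfsg.Agent.H945.L16
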